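import Cfsg.Agent.Lib.Spor.Ext

/-!
Centralisers in a group given by a double coset enumeration.
-/

set_option autoImplicit false

namespace Cfsg.Agent.Spor

open Cfsg.Agent.PG Subgroup Equiv

variable {Γ : Type*} [Group Γ] {γ : ℕ → Γ} {A : List Net} {t : ℕ}

/-- claims that products are words -/
def eqClaims (gens : List (List ℕ)) (ws : List ℕ) : List Claim :=
  (gens.zip ws).map fun q => (q.1, [2 * q.2])

theorem mem_of_eqClaims {D : Subgroup Γ} {m : ℕ} (hm : ∀ j, m.testBit j = true → γ j ∈ D)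
    {gens : List (List ℕ)} {ws : List ℕ} (hl : gens.length = ws.length)
    (hw : allL ws (fun w => winF m w w) = true) (h : ∀ c ∈ eqClaims gens ws, HoldsG γ c) :
    ∀ g ∈ gens, Spor.ppG γ g ∈ D := by
  intro g hg
  rw [← List.map_fst_zip hl.le] at hg
  obtain ⟨q, hq, rfl⟩ := List.mem_map.1 hg
  have := h _ (List.mem_map.2 ⟨q, hq, rfl⟩)
  unfold HoldsG at this
  rw [ppG_cons, ppG_nil, mul_one, spG_even] at this
  rw [this]
  exact wpFG_mem_of_win hm (allL_spec hw _ (List.of_mem_zip hq).2)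

/-- the stabiliser of `β` in `K A t` is generated by `gens` and is the centraliser of `z` -/
structure CentOK (A : List Net) (t : ℕ) (z : List ℕ) (β r : ℕ) (gens : List (List ℕ)) : Prop where
  mem : pge t z = true
  gmem : allL gens (pge t) = true
  len : A.length ≤ 128
  closed : closedB A t β (korb A t β r) = true
  gen : ∀ X : Subgroup (Perm ℕ), (∀ g ∈ gens, pp A g ∈ X) → ∀ σ ∈ K A t, σ β = β → σ ∈ X
  le : ∀ σ ∈ K A t, σ β = β → σ ∈ centralizer {pp A z}
  ge : ∀ σ ∈ K A t, σ ∈ centralizer {pp A z} → σ β = β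

theorem centOK_of {N : ℕ} (hA : okA N A = true) {z : List ℕ} (hz : pge t z = true)
    {l β r s m : ℕ} (ho : orbCardB A l t β r s = true) (hc : Nat.card (K A t) = s * m)
    {gens : List (List ℕ)} (hg : allL gens (pge t) = true) {lv : List (ℕ × ℕ × ℕ × ℕ)}
    (h : lbQ A l gens lv [β] = true) (hm : lvProd lv = m)
    (hcm : ∀ c ∈ cmClaims z gens, Holds A c) {r1 : ℕ} {gs : List (ℕ × ℕ)}
    (hs : subOK A t β r r1 gens (gs.map Prod.fst) = true) (hn : allL gs (ncB A z) = true) :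
    CentOK A t z β r gens := by
  have h1 := stab_le hA ho hc hg h hm (cm_of_claims hcm)
  have h2 := ho
  unfold orbCardB at h2
  simp only [andB_eq, force_eq, Bool.and_eq_true, Nat.ble_eq] at h2
  refine ⟨hz, hg, h2.1, h2.2.1, fun X hX => stab_le hA ho hc hg h hm hX, h1,
    sub_le_stab hA hs h1 (cm_of_claims hcm) fun g hg' => ?_⟩
  obtain ⟨q, hq, rfl⟩ := List.mem_map.1 hg'
  exact ncB_spec hA (allL_spec hn q hq)

variable {z : List ℕ} {β r : ℕ} {gens : List (List ℕ)} {φ : K A t →* Γ}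

theorem CentOK.comm (h : CentOK A t z β r gens) (hφ : IsLift A γ t φ) (σ : K A t)
    (hσ : (σ : Perm ℕ) β = β) : Commute (φ σ) (Spor.ppG γ z) := by
  rw [← hφ.pp h.mem]
  exact Commute.map (Subtype.ext (mem_centralizer_singleton_iff.1 (h.le _ σ.2 hσ))) φ

theorem CentOK.sub (h : CentOK A t z β r gens) (hφ : IsLift A γ t φ) (hi : Function.Injective φ)
    {D : Subgroup Γ} (hD : ∀ g ∈ gens, Spor.ppG γ g ∈ D) :
    ∀ x ∈ KG γ t, Commute x (Spor.ppG γ z) → x ∈ D := by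
  intro x hx hc
  obtain ⟨σ, rfl⟩ : x ∈ φ.range := hφ.range ▸ hx
  rw [← hφ.pp h.mem] at hc
  have h1 : σ * ⟨_, pp_mem h.mem⟩ = ⟨_, pp_mem h.mem⟩ * σ := hi (by simpa using hc.eq)
  obtain ⟨τ, h2, h3⟩ := h.gen ((D.comap φ).map (K A t).subtype) (fun g hg =>
    ⟨⟨_, pp_mem (allL_spec h.gmem g hg)⟩, by
      show φ _ ∈ D
      rw [hφ.pp (allL_spec h.gmem g hg)]; exact hD g hg, rfl⟩) _ σ.2
    (h.ge _ σ.2 (mem_centralizer_singleton_iff.2 (congrArg Subtype.val h1)))
  rwa [← Subtype.ext h3]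

theorem CentOK.conj {lg : ℕ} (hA : okA (2 ^ lg) A = true) (h : CentOK A t z β r gens)
    (hφ : IsLift A γ t φ) {b : List ℕ} (hb : pge t b = true)
    (hf : allL (List.range lg) (fixPl A lg b (korb A t β r)) = true) :
    ∀ x ∈ KG γ t, Commute (x * Spor.ppG γ z * x⁻¹) (Spor.ppG γ b) := by
  intro x hx
  obtain ⟨σ, rfl⟩ : x ∈ φ.range := hφ.range ▸ hx
  have h1 := fix_of_planes hA (allL_spec hf) _ (closedB_spec hA h.len h.closed σ.2)
  have h2 := h.comm hφ (σ⁻¹ * ⟨_, pp_mem hb⟩ * σ) (by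
    show ((σ : Perm ℕ)⁻¹ * pp A b * σ) β = β
    rw [Perm.mul_apply, Perm.mul_apply, h1]; simp)
  rw [map_mul, map_mul, map_inv, hφ.pp hb] at h2
  have := h2.eq
  show _ = _
  calc _ = φ σ * (Spor.ppG γ z * ((φ σ)⁻¹ * Spor.ppG γ b * φ σ)) * (φ σ)⁻¹ := by group
    _ = _ := by rw [← this]; group

/-- the centraliser in a subgroup, as a group -/
noncomputable def centEquiv {G D : Subgroup Γ} {x : Γ} (hx : x ∈ G) (hle : D ≤ G)
    (h1 : ∀ y ∈ D, Commute y x) (h2 : ∀ y ∈ G, Commute y x → y ∈ D) :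
    centralizer ({⟨x, hx⟩} : Set G) ≃* D :=
  (MulEquiv.subgroupCongr (K := D.subgroupOf G) (by
    ext y
    rw [mem_centralizer_singleton_iff, mem_subgroupOf, Subtype.ext_iff]
    exact ⟨h2 _ y.2, h1 _⟩)).trans (subgroupOfEquivOfLe hle)

theorem comm_of_conj {e b : Γ} {H : Subgroup Γ} (he : ∀ y ∈ H, Commute y e) (hb : b ∈ H) :
    ∀ x ∈ H, Commute (x * e * x⁻¹) b := fun x hx => by
  rw [(he x hx).eq, mul_inv_cancel_right]; exact (he b hb).symm

end Cfsg.Agent.Spor
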