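import Cfsg.Agent.Lib.Spor.Pack
import Cfsg.Agent.Lib.PG.Hom

/-!
Centralisers of involutions through Sylow subgroups of the two-point stabilisers.
-/

set_option autoImplicit false

namespace Cfsg.Agent.Spor

open Cfsg.Agent.PG Subgroup Equiv Cfsg.Agent.Lib.PGroup

variable {Γ : Type*} [Group Γ] {γ : ℕ → Γ} {A : List Net} {t N : ℕ}

/-- normal forms in the letters `a, …, a + k - 1` -/
def nfL (a k : ℕ) : List (List ℕ) :=
  Nat.rec (motive := fun _ => List (List ℕ)) [[]]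
    (fun i ih => ih ++ ih.map fun w => w ++ [gw (a + i)]) k

theorem nfL_head (a k : ℕ) : ∃ r, nfL a k = [] :: r := by
  induction k with
  | zero => exact ⟨[], rfl⟩
  | succ k ih =>
    obtain ⟨r, hr⟩ := ih
    exact ⟨_, by
      show nfL a k ++ (nfL a k).map _ = _
      rw [hr]; rfl⟩

/-- the claims to prove -/
def p2Pos (a : ℕ) (l : List (List ℕ × ℕ)) : List Claim :=
  (l.zipIdx a).flatMap fun q => ([gw q.2, gw q.2], [2 * q.1.2]) ::
    ((q.1.1.zipIdx a).map fun u => ([gw q.2, gw u.2], [2 * u.1, gw q.2]))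

/-- the claims to refute -/
def p2Neg (a k : ℕ) : List Claim :=
  (List.range k).flatMap fun i => (nfL a i).map fun w => ([gw (a + i)], w)

/-- structural test -/
noncomputable def p2OK (a : ℕ) (l : List (List ℕ × ℕ)) : Bool :=
  allL (l.zipIdx a) fun q => andB (Nat.blt q.2 128) <|
    andB (Nat.beq (a + q.1.1.length) q.2) <| andB (winF (ivl a q.2) q.1.2 q.1.2) <|
    allL q.1.1 fun w => winF (ivl a q.2) w w

theorem p2_spec [Finite Γ] {a : ℕ} {l : List (List ℕ × ℕ)} (h : p2OK a l = true)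
    (h1 : ∀ c ∈ p2Pos a l, HoldsG γ c) (h2 : ∀ c ∈ p2Neg a l.length, ¬ HoldsG γ c) :
    Nat.card (KW γ a (a + l.length)) = 2 ^ l.length ∧
      ∀ x ∈ KW γ a (a + l.length), ∃ w ∈ nfL a l.length, Spor.ppG γ w = x := by
  have : Fact (Nat.Prime 2) := ⟨Nat.prime_two⟩
  have key : ∀ k, k ≤ l.length → Nat.card (KW γ a (a + k)) = 2 ^ k ∧
      ∀ x ∈ KW γ a (a + k), ∃ w ∈ nfL a k, Spor.ppG γ w = x := by
    intro k
    induction k with
    | zero =>
      intro _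
      have : KW γ a (a + 0) = ⊥ := eq_bot_iff.2 (KW_le fun j b1 b2 => by omega)
      rw [this]
      exact ⟨card_bot, fun x hx => ⟨[], List.mem_cons_self, (mem_bot.1 hx).symm⟩⟩
    | succ k ih =>
      intro hk
      obtain ⟨i1, i2⟩ := ih (by omega)
      have hq : (l[k], a + k) ∈ l.zipIdx a := by
        rw [List.mk_mem_zipIdx_iff_le_and_getElem?_sub]
        exact ⟨by omega, by simp⟩
      have h3 := allL_spec h _ hq
      simp only [andB_eq, Bool.and_eq_true, Nat.blt_eq, Nat.beq_eq] at h3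
      obtain ⟨a1, a3, a4, a5⟩ := h3
      have hy : γ (a + k) ∈ normalizer (KW γ a (a + k) : Set Γ) := mem_normalizer_fintype (by
        have : KW γ a (a + k) ≤ conjIn (KW γ a (a + k)) (γ (a + k)) := KW_le fun j b1 b2 => by
          have hj : j - a < l[k].1.length := by omega
          have := h1 ([gw (a + k), gw j], [2 * l[k].1[j - a], gw (a + k)])
            (List.mem_flatMap.2 ⟨_, hq, List.mem_cons_of_mem _
              (List.mem_map.2 ⟨(l[k].1[j - a], j), by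
                rw [List.mk_mem_zipIdx_iff_le_and_getElem?_sub]
                exact ⟨b1, by simp⟩, rfl⟩)⟩)
          unfold HoldsG at this
          simp only [ppG_cons, ppG_nil, mul_one, spG_even, spG_gw γ a1,
            spG_gw γ (show j < 128 by omega)] at this
          rw [mem_conjIn, this, mul_inv_cancel_right]
          exact wpG_mem_KW (allL_spec a5 _ (List.getElem_mem hj))
        exact fun n hn => this hn)
      have hs : γ (a + k) * γ (a + k) ∈ KW γ a (a + k) := by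
        have := h1 _ (List.mem_flatMap.2 ⟨_, hq, List.mem_cons_self⟩)
        unfold HoldsG at this
        simp only [ppG_cons, ppG_nil, mul_one, spG_even, spG_gw γ a1] at this
        rw [this]
        exact wpG_mem_KW a4
      have hn : γ (a + k) ∉ KW γ a (a + k) := fun hx => by
        obtain ⟨w, hw, e⟩ := i2 _ hx
        apply h2 _ (List.mem_flatMap.2 ⟨k, List.mem_range.2 hk, List.mem_map.2 ⟨w, hw, rfl⟩⟩)
        unfold HoldsG
        rw [e, ppG_cons, ppG_nil, mul_one, spG_gw γ a1]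
      rw [← add_assoc, KW_succ γ (by omega)]
      refine ⟨by rw [card_sup_zpowers hy hn (by rwa [sq]), i1, pow_succ], fun x hx => ?_⟩
      rcases mem_or_of_sq hy hs x hx with h4 | h4
      · obtain ⟨w, hw, e⟩ := i2 _ h4
        exact ⟨w, List.mem_append_left _ hw, e⟩
      · obtain ⟨w, hw, e⟩ := i2 _ h4
        refine ⟨_, List.mem_append_right _ (List.mem_map.2 ⟨w, hw, rfl⟩), ?_⟩
        rw [ppG_append, e, ppG_cons, ppG_nil, mul_one, spG_gw γ a1, inv_mul_cancel_right]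
  exact key _ le_rfl

variable {φ : K A (t + 1) →* Γ} {t'' β O : ℕ} {cj : List ℕ} {reps : List Rep}

theorem top_stab_card (hA : okA N A = true) (hφ : IsLift A γ (t + 1) φ)
    (h : TopOK A γ t t'' β O cj reps) {l : ℕ} {lvs : List (List (ℕ × ℕ × ℕ × ℕ))}
    (hlen : lvs.length = reps.length) (hlb : ∀ q ∈ reps.zip lvs, lbR A l q = true) {m : ℕ}
    (hm : Nat.card (K A (t + 1)) = m) (hd : ∀ lv ∈ lvs, lvProd lv ∣ m)
    (hG : Nat.card (KG γ t) = (lvs.map fun lv => m / lvProd lv).sum * m) :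
    ∀ q ∈ reps.zip lvs, Nat.card (stabD φ (wpG γ q.1.g)) = lvProd q.2 := by
  have := finite_K hA (t + 1)
  have hf : ∀ g, Finite (stabD φ g) := fun g => finite_of_le (stabD_le _ _)
  have hm0 : 0 < m := hm ▸ Nat.card_pos
  have hl : ∀ q ∈ reps.zip lvs, 0 < lvProd q.2 ∧ lvProd q.2 ≤ Nat.card (stabD φ (wpG γ q.1.g)) := by
    intro q hq
    have h2 := hlb q hq
    unfold lbR at h2
    rw [andB_eq, Bool.and_eq_true, Nat.blt_eq] at h2
    have hR := (List.of_mem_zip hq).1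
    exact ⟨h2.1, lbQ_nil hA (ms_mem_stabD hφ hR (h.rep _ hR) h.claims) h2.2⟩
  have h1 := (card_le_of_cover φ (G := KG γ t)
    ((reps.zip lvs).map fun q => (wpG γ q.1.g, Nat.card (stabD φ (wpG γ q.1.g)))) (by
      intro q hq
      obtain ⟨q, -, rfl⟩ := List.mem_map.1 hq
      exact ⟨Nat.card_pos, (card_stabD φ _).le⟩) (by
      intro x hx
      obtain ⟨k, hk, w, hw, e⟩ := dc_cosetsG hA hφ h.next h.shape h.rep h.claims x hx
      rw [← List.map_fst_zip hlen.ge, List.map_map] at hw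
      obtain ⟨q, hq, rfl⟩ := List.mem_map.1 hw
      exact ⟨k, hφ.range ▸ hk, _, List.mem_map.2 ⟨q, hq, rfl⟩, hφ.range ▸ e⟩)).2
  have e : (lvs.map fun lv => m / lvProd lv) = (reps.zip lvs).map fun q => m / lvProd q.2 := by
    conv_lhs => rw [← List.map_snd_zip hlen.le, List.map_map]
    rfl
  rw [hG, hm, List.map_map, e] at h1
  intro q hq
  by_contra hne
  refine absurd (Nat.le_of_mul_le_mul_right h1 hm0) (not_le.2 (List.sum_lt_sum _ _
    (fun q hq => Nat.div_le_div_left (hl q hq).2 (hl q hq).1) ⟨q, hq, ?_⟩))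
  have h3 : lvProd q.2 < Nat.card (stabD φ (wpG γ q.1.g)) :=
    lt_of_le_of_ne (hl q hq).2 (Ne.symm hne)
  exact Nat.div_lt_div_left hm0.ne' (hm ▸ card_dvd_of_le (stabD_le _ _))
    (hd _ (List.of_mem_zip hq).2) |>.2 h3

/-- data for the Sylow subgroup of a two-point stabiliser -/
structure SRep : Type where
  /-- first letter -/
  a : ℕ
  /-- the series -/
  pc : List (List ℕ × ℕ)
  /-- pairs `(h, u)` with `y = h` and `y * g = g * u` -/
  ys : List (ℕ × ℕ)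
  /-- triples `(h, c, u)` with `h * w = z * h` and `h * g = c * u` -/
  ds : List (ℕ × ℕ × ℕ)

/-- the non-trivial normal forms with their data -/
def SRep.nf (S : SRep) : List (List ℕ × ℕ × ℕ × ℕ) := (nfL S.a S.pc.length).tail.zip S.ds

/-- structural test -/
noncomputable def srepOK (t' m : ℕ) (q : (Rep × List (ℕ × ℕ × ℕ × ℕ)) × SRep) : Bool :=
  andB (p2OK q.2.a q.2.pc) <| andB (Nat.beq q.2.ys.length q.2.pc.length) <|
  andB (Nat.ble (q.2.a + q.2.pc.length) 128) <|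
  andB (allL q.2.ys fun x => andB (wge t' x.1) (wge t' x.2)) <|
  andB (Nat.beq (nfL q.2.a q.2.pc.length).tail.length q.2.ds.length) <|
  andB (allL q.2.ds fun x => andB (wge t' x.1) (andB (winF m x.2.1 x.2.1) (wge t' x.2.2))) <|
  Nat.blt 0 (lvProd q.1.2 % 2 ^ (q.2.pc.length + 1))

/-- the claims to prove -/
def syPos (z : List ℕ) (l : List ((Rep × List (ℕ × ℕ × ℕ × ℕ)) × SRep)) : List Claim :=
  l.flatMap fun q => p2Pos q.2.a q.2.pc ++ (((q.2.ys.zipIdx q.2.a).flatMap fun y =>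
    [([gw y.2], [2 * y.1.1]), ([gw y.2, 2 * q.1.1.g], [2 * q.1.1.g, 2 * y.1.2])]) ++
    q.2.nf.flatMap fun x => cond (Nat.beq x.2.1 0) []
      [((2 * x.2.1) :: x.1, z ++ [2 * x.2.1]), ([2 * x.2.1, 2 * q.1.1.g], [2 * x.2.2.1, 2 * x.2.2.2])])

/-- the claims to refute -/
def syNeg (l : List ((Rep × List (ℕ × ℕ × ℕ × ℕ)) × SRep)) : List Claim :=
  l.flatMap fun q => p2Neg q.2.a q.2.pc.length ++
    q.2.nf.flatMap fun x => cond (Nat.beq x.2.1 0) [(x.1 ++ x.1, [])] []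

theorem top_cent2 [Finite Γ] (hA : okA N A = true) (hφ : IsLift A γ (t + 1) φ)
    (hi : Function.Injective φ) (h : TopOK A γ t t'' β O cj reps)
    {lvs : List (List (ℕ × ℕ × ℕ × ℕ))} (hlen : lvs.length = reps.length)
    (hc : ∀ q ∈ reps.zip lvs, Nat.card (stabD φ (wpG γ q.1.g)) = lvProd q.2) {z : List ℕ}
    (hz : Spor.ppG γ z ∈ KG γ (t + 1)) (hz1 : Spor.ppG γ z ≠ 1)
    (hz2 : Spor.ppG γ z * Spor.ppG γ z = 1) {D : Subgroup Γ}
    (hD : ∀ x ∈ D, Commute x (Spor.ppG γ z))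
    (hD' : ∀ x ∈ KG γ (t + 1), Commute x (Spor.ppG γ z) → x ∈ D)
    {m : ℕ} (hm : ∀ j, m.testBit j = true → γ j ∈ D) {ss : List SRep}
    (hl : ss.length + 1 = reps.length)
    (hr : allL (((reps.zip lvs).drop 1).zip ss) (srepOK (t + 1) m) = true)
    (h1 : ∀ c ∈ syPos z (((reps.zip lvs).drop 1).zip ss), HoldsG γ c)
    (h2 : ∀ c ∈ syNeg (((reps.zip lvs).drop 1).zip ss), ¬ HoldsG γ c) :
    ∀ x ∈ KG γ t, Commute x (Spor.ppG γ z) → x ∈ D := by
  intro d hd hdz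
  have hsh := h.shape
  unfold topShape at hsh
  simp only [andB_eq, Bool.and_eq_true, Nat.ble_eq, Nat.beq_eq, Nat.blt_eq] at hsh
  obtain ⟨k, hk, w, hw, e⟩ := dc_cosetsG hA hφ h.next h.shape h.rep h.claims d hd
  rcases mem_head_or_drop hw with h3 | h3
  · rw [h3, hsh.2.2.2.2.1, wpG_one, mul_one] at e
    exact hD' d (by simpa using mul_mem hk e) hdz
  rw [← List.map_fst_zip hlen.ge, List.map_map, ← List.map_drop, ← List.map_fst_zip
    (l₁ := (reps.zip lvs).drop 1) (l₂ := ss) (by simp [List.length_zip]; omega),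
    List.map_map] at h3
  obtain ⟨q, hq, rfl⟩ := List.mem_map.1 h3
  have hq' := allL_spec hr q hq
  unfold srepOK at hq'
  simp only [andB_eq, Bool.and_eq_true, Nat.ble_eq, Nat.beq_eq, Nat.blt_eq] at hq'
  obtain ⟨r1, r2, r3, r4, r5, r6, r7⟩ := hq'
  have c1 := fun c hc => h1 c (List.mem_flatMap.2 ⟨q, hq, hc⟩)
  have c2 := fun c hc => h2 c (List.mem_flatMap.2 ⟨q, hq, hc⟩)
  simp only [List.forall_mem_append] at c1 c2
  obtain ⟨p1, p2⟩ := p2_spec r1 c1.1 c2.1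
  simp only [Function.comp] at e
  have hcq := hc _ (List.mem_of_mem_drop (List.of_mem_zip hq).1)
  generalize hg : wpG γ q.1.1.g = g at *
  let M : Subgroup Γ := KG γ (t + 1) ⊓ conjIn (KG γ (t + 1)) g⁻¹
  have hM : Nat.card M = lvProd q.1.2 := by
    rw [← hcq, card_stabD, ← card_map_of_injective hi, map_comap_eq, hφ.range]
  have hT : KW γ q.2.a (q.2.a + q.2.pc.length) ≤ M := KW_le fun j b1 b2 => by
    have hj : j - q.2.a < q.2.ys.length := by omega
    have hy : (q.2.ys[j - q.2.a], j) ∈ q.2.ys.zipIdx q.2.a := by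
      rw [List.mk_mem_zipIdx_iff_le_and_getElem?_sub]
      exact ⟨b1, by simp⟩
    have a1 := allL_spec r4 _ (List.getElem_mem hj)
    rw [Bool.and_eq_true] at a1
    have a2 := fun c hc => c1.2.1 c (List.mem_flatMap.2 ⟨_, hy, hc⟩)
    simp only [List.forall_mem_cons, HoldsG, ppG_cons, ppG_nil, mul_one, spG_even, hg,
      spG_gw γ (show j < 128 by omega)] at a2
    refine ⟨a2.1 ▸ wpG_mem a1.1, ?_⟩
    show g⁻¹ * γ j * g⁻¹⁻¹ ∈ KG γ (t + 1)
    rw [inv_inv, mul_assoc, a2.2.1, inv_mul_cancel_left]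
    exact wpG_mem a1.2
  generalize hζ : Spor.ppG γ z = ζ at hz hz1 hz2 hD hD' hdz
  have hw' : k⁻¹ * ζ * k ∈ M := mem_inf.2 ⟨mul_mem (mul_mem (inv_mem hk) hz) hk, by
    show g⁻¹ * (k⁻¹ * ζ * k) * g⁻¹⁻¹ ∈ KG γ (t + 1)
    have : g⁻¹ * (k⁻¹ * ζ * k) * g⁻¹⁻¹ = (k * g)⁻¹ * d * ζ * ((k * g)⁻¹ * d)⁻¹ := by
      rw [mul_assoc _ d, hdz.eq]; group
    rw [this]
    exact mul_mem (mul_mem e hz) (inv_mem e)⟩
  have hsq : (k⁻¹ * ζ * k) ^ 2 = 1 := by
    have : (k⁻¹ * ζ * k) ^ 2 = k⁻¹ * (ζ * ζ) * k := by rw [sq]; group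
    rw [this, hz2]; group
  obtain ⟨⟨μ, hμ⟩, hμ'⟩ := exists_conj_le Nat.prime_two
    (P := (KW γ q.2.a (q.2.a + q.2.pc.length)).subgroupOf M) (Q := zpowers ⟨_, hw'⟩)
    ((Nat.card_congr (subgroupOfEquivOfLe hT).toEquiv).trans p1)
    (fun hx => by rw [hM] at hx; have := Nat.mod_eq_zero_of_dvd hx; omega)
    (by
      have h5 : orderOf (⟨_, hw'⟩ : M) ∣ 2 := orderOf_dvd_of_pow_eq_one (Subtype.ext hsq)
      rw [← Nat.card_zpowers] at h5
      rcases (Nat.dvd_prime Nat.prime_two).1 h5 with h6 | h6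
      · exact IsPGroup.of_card (n := 0) h6
      · exact IsPGroup.of_card (n := 1) h6)
  obtain ⟨w, hw1, hw2⟩ := p2 _ (hμ' _ (mem_zpowers _))
  change _ = μ * (k⁻¹ * ζ * k) * μ⁻¹ at hw2
  obtain ⟨r, hr'⟩ := nfL_head q.2.a q.2.pc.length
  have hw3 : w ∈ (nfL q.2.a q.2.pc.length).tail := by
    rw [hr'] at hw1 ⊢
    refine (List.mem_cons.1 hw1).resolve_left fun e0 => hz1 ?_
    rw [e0, ppG_nil] at hw2
    calc ζ = k * μ⁻¹ * (μ * (k⁻¹ * ζ * k) * μ⁻¹) * (k * μ⁻¹)⁻¹ := by group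
      _ = 1 := by rw [← hw2]; group
  rw [← List.map_fst_zip r5.le] at hw3
  obtain ⟨x, hx, rfl⟩ := List.mem_map.1 hw3
  have a1 := allL_spec r6 _ (List.of_mem_zip hx).2
  simp only [Bool.and_eq_true] at a1
  have c3 := fun c hc => c1.2.2 c (List.mem_flatMap.2 ⟨x, hx, hc⟩)
  have c4 := fun c hc => c2.2 c (List.mem_flatMap.2 ⟨x, hx, hc⟩)
  cases hb : Nat.beq x.2.1 0
  swap
  · rw [hb] at c4
    refine absurd ?_ (c4 _ List.mem_cons_self)
    unfold HoldsG
    rw [ppG_append, hw2, ppG_nil]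
    calc _ = μ * (k⁻¹ * ζ * k) ^ 2 * μ⁻¹ := by rw [sq]; group
      _ = 1 := by rw [hsq]; group
  rw [hb] at c3
  simp only [cond_false, List.forall_mem_cons, HoldsG, ppG_cons, ppG_nil, mul_one, spG_even, hg,
    ppG_append, hw2, hζ] at c3
  obtain ⟨b1, b2, -⟩ := c3
  have m1 : wpG γ x.2.1 ∈ KG γ (t + 1) := wpG_mem a1.1
  have m2 : wpG γ x.2.2.1 ∈ D := wpFG_mem_of_win hm a1.2.1
  have m3 : wpG γ x.2.2.2 ∈ KG γ (t + 1) := wpG_mem a1.2.2
  have m4 : g⁻¹ * μ * g⁻¹⁻¹ ∈ KG γ (t + 1) := hμ.2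
  generalize wpG γ x.2.1 = η at *
  generalize wpG γ x.2.2.1 = c at *
  generalize wpG γ x.2.2.2 = u at *
  have s1 : k * μ⁻¹ * η⁻¹ ∈ D := hD' _ (mul_mem (mul_mem hk (inv_mem hμ.1)) (inv_mem m1)) (by
    show _ = _
    calc _ = k * μ⁻¹ * η⁻¹ * (ζ * η) * η⁻¹ := by group
      _ = _ := by rw [← b1]; group)
  have ed : d = k * μ⁻¹ * η⁻¹ * (c * (u * ((g⁻¹ * μ * g⁻¹⁻¹) * ((k * g)⁻¹ * d)))) := by
    rw [← mul_assoc c, ← b2]; group
  have s2 := hD' _ (mul_mem m3 (mul_mem m4 e)) (by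
    have := (hD _ m2).inv_left.mul_left ((hD _ s1).inv_left.mul_left hdz)
    generalize u * (g⁻¹ * μ * g⁻¹⁻¹ * ((k * g)⁻¹ * d)) = y at ed ⊢
    rwa [ed, inv_mul_cancel_left, inv_mul_cancel_left] at this)
  rw [ed]
  exact mul_mem s1 (mul_mem m2 s2)

/-- points moved by a product -/
noncomputable def mvB (A : List Net) (lg : ℕ) (z : List ℕ) : ℕ :=
  orL ((List.range lg).map fun p => Nat.xor (papp1 A z (plane p lg)) (plane p lg))

theorem mvB_spec (hA : okA N A = true) {lg : ℕ} {z : List ℕ} {i : ℕ}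
    (h : (mvB A lg z).testBit i = true) : pp A z i ≠ i := by
  obtain ⟨_, hv, h1⟩ := testBit_orL h
  obtain ⟨p, -, rfl⟩ := List.mem_map.1 hv
  have : ∀ a b : ℕ, Nat.xor a b = a ^^^ b := fun _ _ => rfl
  intro e
  rw [this, Nat.testBit_xor, testBit_papp1 hA, e] at h1
  simp at h1

/-- a chain of orbits along points fixed by `z`; a level is
`(β, start, rounds, size, start', rounds')` -/
noncomputable def ccQ (A : List Net) (l : ℕ) (z : List ℕ) (mv : ℕ) (gens cg tg : List (List ℕ))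
    (tl : List (ℕ × ℕ × ℕ × ℕ)) (lv : List (ℕ × ℕ × ℕ × ℕ × ℕ × ℕ)) : List ℕ → Bool :=
  List.rec (motive := fun _ => List ℕ → Bool) (fun fx => lbQ A l tg tl fx)
    (fun q _ ih fx => andB (fixB A (gens.drop q.2.1) fx) <|
      andB (fixB A (cg.drop q.2.2.2.2.1) fx) <| andB (fixB A [z] [q.1]) <|
      andB (force (orb A (gens.drop q.2.1) q.2.2.1 (Nat.shiftLeft 1 q.1))
        fun O => andB (cardB l O q.2.2.2.1) (subB O (Nat.lor mv
          (orb A (cg.drop q.2.2.2.2.1) q.2.2.2.2.2 (Nat.shiftLeft 1 q.1))))) <| ih (q.1 :: fx)) lv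

theorem ccQ_spec (hA : okA N A = true) {l mv : ℕ} {z : List ℕ}
    (hmv : ∀ i, mv.testBit i = true → pp A z i ≠ i) {gens cg tg : List (List ℕ)}
    {Q X : Subgroup (Perm ℕ)} [Finite Q] (hg : ∀ g ∈ gens, pp A g ∈ Q)
    (hc : ∀ g ∈ cg, pp A g ∈ Q ⊓ X ⊓ centralizer {pp A z}) (ht : ∀ g ∈ tg, pp A g ∈ Q ⊓ X)
    {tl : List (ℕ × ℕ × ℕ × ℕ)} {lv : List (ℕ × ℕ × ℕ × ℕ × ℕ × ℕ)} {fx : List ℕ}
    (h : ccQ A l z mv gens cg tg tl lv fx = true) :
    (lv.map fun q => q.2.2.2.1).prod * lvProd tl ≤ Nat.card ↥(Q ⊓ fixL fx) ∧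
      (Nat.card ↥(Q ⊓ fixL fx) ≤ (lv.map fun q => q.2.2.2.1).prod * lvProd tl →
        ∀ σ ∈ Q ⊓ fixL fx, σ ∈ centralizer {pp A z} → σ ∈ X) := by
  have fin : ∀ fx, Finite ↥(Q ⊓ fixL fx) := fun _ => finite_of_le inf_le_left
  induction lv generalizing fx with
  | nil =>
    have : Finite ↥(Q ⊓ X) := finite_of_le inf_le_left
    have h1 := lbQ_spec hA ht h
    have h2 : Q ⊓ X ⊓ fixL fx ≤ Q ⊓ fixL fx := inf_le_inf_right _ inf_le_left
    rw [List.map_nil, List.prod_nil, one_mul]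
    exact ⟨h1.trans (card_le_of_le h2), fun h3 σ hσ _ =>
      ((eq_of_le_of_card_ge h2 (h3.trans h1)).ge hσ).1.2⟩
  | cons q lv ih =>
    have h' : (andB (fixB A (gens.drop q.2.1) fx) <|
      andB (fixB A (cg.drop q.2.2.2.2.1) fx) <| andB (fixB A [z] [q.1]) <|
      andB (force (orb A (gens.drop q.2.1) q.2.2.1 (Nat.shiftLeft 1 q.1))
        fun O => andB (cardB l O q.2.2.2.1) (subB O (Nat.lor mv
          (orb A (cg.drop q.2.2.2.2.1) q.2.2.2.2.2 (Nat.shiftLeft 1 q.1))))) <|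
      ccQ A l z mv gens cg tg tl lv (q.1 :: fx)) = true := h
    simp only [andB_eq, force_eq, Bool.and_eq_true] at h'
    obtain ⟨a1, a2, a3, ⟨a4, a5⟩, a6⟩ := h'
    have e : Q ⊓ fixL (q.1 :: fx) = Q ⊓ fixL fx ⊓ stabB (Nat.shiftLeft 1 q.1) := by
      ext σ
      simp only [mem_inf, mem_fixL, stabB_shl, List.forall_mem_cons]
      tauto
    obtain ⟨b1, b2⟩ := ih a6
    have hfin : {i | ∃ σ ∈ Q ⊓ fixL fx, σ q.1 = i}.Finite := by
      have e : {i | ∃ σ ∈ Q ⊓ fixL fx, σ q.1 = i} =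
          Set.range (fun σ : ↥(Q ⊓ fixL fx) => (σ : Perm ℕ) q.1) := by
        ext i; simp only [Set.mem_ofPred_eq, Set.mem_range, Subtype.exists, exists_prop]
      rw [e]; exact Set.finite_range _
    have hsub : bset (orb A (gens.drop q.2.1) q.2.2.1 (Nat.shiftLeft 1 q.1)) ⊆
        {i | ∃ σ ∈ Q ⊓ fixL fx, σ q.1 = i} := by
      intro i hi
      obtain ⟨σ, hσ, j, hj, rfl⟩ := reach_orb hA (Q := Q ⊓ fixL fx) (fun g hg' =>
        ⟨hg g (List.mem_of_mem_drop hg'), fixB_spec hA a1 g hg'⟩) _ _ i hi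
      rw [testBit_shl_one] at hj
      exact ⟨σ, hσ, by rw [hj]⟩
    have b3 := Set.ncard_le_ncard hsub hfin
    have b4 := card_eq_orbit_mul (Q ⊓ fixL fx) q.1
    have b5 : 0 < Nat.card ↥(Q ⊓ fixL fx) := Nat.card_pos
    rw [← e] at b4
    rw [List.map_cons, List.prod_cons, mul_assoc, ← cardB_spec a4]
    refine ⟨b4 ▸ Nat.mul_le_mul b3 b1, fun h3 σ hσ hz => ?_⟩
    rw [b4] at h3 b5
    have c1 := Nat.le_of_mul_le_mul_left (h3.trans (Nat.mul_le_mul_right _ b3))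
      (Nat.pos_of_mul_pos_right b5)
    have c2 := Nat.le_of_mul_le_mul_right (h3.trans (Nat.mul_le_mul_left _ b1))
      (Nat.pos_of_mul_pos_left b5)
    have c3 := subB_spec a5 ((Set.eq_of_subset_of_ncard_le hsub c2 hfin).ge ⟨σ, hσ, rfl⟩)
    have b6 : ∀ a b : ℕ, Nat.lor a b = a ||| b := fun _ _ => rfl
    rw [b6, Nat.testBit_or, Bool.or_eq_true] at c3
    obtain ⟨τ, hτ, j, hj, e1⟩ := reach_orb hA (Q := Q ⊓ X ⊓ centralizer {pp A z} ⊓ fixL fx)
      (fun g hg' => ⟨hc g (List.mem_of_mem_drop hg'), fixB_spec hA a2 g hg'⟩) _ _ _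
      (c3.resolve_left fun c4 => hmv _ c4 (by
        rw [← Perm.mul_apply, ← mem_centralizer_singleton_iff.1 hz, Perm.mul_apply,
          fixB_spec hA a3 z List.mem_cons_self q.1 List.mem_cons_self]))
    rw [testBit_shl_one] at hj
    have := b2 c1 (τ⁻¹ * σ) (e ▸ mem_inf.2 ⟨mul_mem (inv_mem ⟨hτ.1.1.1, hτ.2⟩) hσ, stabB_shl.2 (by
      rw [Perm.mul_apply, ← e1, hj]; simp)⟩) (mul_mem (inv_mem hτ.1.2) hz)
    simpa using mul_mem hτ.1.1.2 this

theorem cent_chain (hA : okA N A = true) {φ : K A t →* Γ} (hφ : IsLift A γ t φ)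
    (hi : Function.Injective φ) {l lg : ℕ} {z : List ℕ} (hz : pge t z = true)
    {gens cg tg : List (List ℕ)} (hg : allL (gens ++ (cg ++ tg)) (pge t) = true)
    (hcm : ∀ c ∈ cmClaims z cg, Holds A c)
    {tl : List (ℕ × ℕ × ℕ × ℕ)} {lv : List (ℕ × ℕ × ℕ × ℕ × ℕ × ℕ)}
    (h : force (mvB A lg z) (fun mv => ccQ A l z mv gens cg tg tl lv []) = true)
    (hc : Nat.card (K A t) = (lv.map fun q => q.2.2.2.1).prod * lvProd tl) {D : Subgroup Γ}
    (hD : ∀ g ∈ cg ++ tg, Spor.ppG γ g ∈ D) :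
    ∀ x ∈ KG γ t, Commute x (Spor.ppG γ z) → x ∈ D := by
  intro x hx hcx
  have := finite_K hA t
  obtain ⟨σ, rfl⟩ : x ∈ φ.range := hφ.range ▸ hx
  rw [← hφ.pp hz] at hcx
  have h1 : σ * ⟨_, pp_mem hz⟩ = ⟨_, pp_mem hz⟩ * σ := hi (by simpa using hcx.eq)
  have hg' := allL_spec hg
  have hX : ∀ g ∈ cg ++ tg, pp A g ∈ K A t ⊓ (D.comap φ).map (K A t).subtype := fun g h2 =>
    have h3 := hg' g (List.mem_append_right _ h2)
    ⟨pp_mem h3, ⟨_, pp_mem h3⟩, by
      show φ _ ∈ D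
      rw [hφ.pp h3]; exact hD g h2, rfl⟩
  have e : K A t ⊓ fixL [] = K A t := inf_eq_left.2 fun σ _ b hb => by cases hb
  rw [force_eq] at h
  have h4 := (ccQ_spec hA (fun _ => mvB_spec hA)
    (fun g h2 => pp_mem (hg' g (List.mem_append_left _ h2)))
    (fun g h2 => ⟨hX g (List.mem_append_left _ h2), cm_of_claims hcm g h2⟩)
    (fun g h2 => hX g (List.mem_append_right _ h2)) h).2
  rw [e] at h4
  obtain ⟨τ, h2, h3⟩ := h4 hc.le σ σ.2 (mem_centralizer_singleton_iff.2 (congrArg Subtype.val h1))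
  rwa [← Subtype.ext h3]

/-- a central extension of a simple group -/
theorem center_eq_ker' {D S : Type*} [Group D] [Group S] [IsSimpleGroup S]
    (hS : ∃ a b : S, a * b ≠ b * a) {ψ : D →* S}
    (hs : Function.Surjective ψ) (hk : ψ.ker ≤ center D) : center D = ψ.ker := by
  refine le_antisymm (fun x hx => ?_) hk
  rcases IsSimpleGroup.eq_bot_or_eq_top_of_normal (center S) inferInstance with h | h
  · rw [MonoidHom.mem_ker, ← mem_bot, ← h, mem_center_iff]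
    intro s
    obtain ⟨y, rfl⟩ := hs s
    rw [← map_mul, ← map_mul, mem_center_iff.1 hx]
  · obtain ⟨a, b, hab⟩ := hS
    exact absurd (mem_center_iff.1 (h ▸ mem_top b) a) hab

/-- the centraliser of an element under an isomorphism -/
noncomputable def centCongr {G H : Type*} [Group G] [Group H] (e : G ≃* H) (x : G) :
    centralizer ({x} : Set G) ≃* centralizer ({e x} : Set H) :=
  (e.subgroupMap _).trans (MulEquiv.subgroupCongr (by
    ext y
    obtain ⟨y, rfl⟩ := e.surjective y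
    rw [mem_centralizer_singleton_iff, ← map_mul, ← map_mul, e.injective.eq_iff,
      ← mem_centralizer_singleton_iff]
    exact mem_map_iff_mem (f := (e : G →* H)) e.injective))

end Cfsg.Agent.Spor
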