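import Cfsg.Agent.Lib.Spor.Cent2

/-!
Central extensions and simple subgroups given by windows of letters.
-/

set_option autoImplicit false

namespace Cfsg.Agent.Spor

open Cfsg.Agent.PG Subgroup

variable {Γ : Type*} [Group Γ] {γ : ℕ → Γ} {B : List Net}

theorem KW_one (γ : ℕ → Γ) (a : ℕ) : KW γ a (a + 1) = zpowers (γ a) :=
  le_antisymm (KW_le fun j b1 b2 => by rw [show j = a by omega]; exact mem_zpowers _)
    (zpowers_le_of_mem (mem_KW γ le_rfl (by omega)))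

theorem KW_sup (γ : ℕ → Γ) {a b c : ℕ} (h1 : a ≤ b) (h2 : b ≤ c) :
    KW γ a b ⊔ KW γ b c = KW γ a c :=
  le_antisymm (sup_le (KW_le fun j _ _ => mem_KW γ (by omega) (by omega))
    (KW_le fun j _ _ => mem_KW γ (by omega) (by omega))) (KW_le fun j b1 b2 => by
      by_cases h : j < b
      · exact mem_sup_left (mem_KW γ b1 h)
      · exact mem_sup_right (mem_KW γ (by omega) b2))

theorem cext [Finite Γ] {a n p : ℕ} (hp : p.Prime) (hn : n ≤ 128) (ha : a + 2 < n)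
    [IsSimpleGroup (K B (a + 1))] [Finite (K B (a + 1))]
    (hS : ¬ (Nat.card (K B (a + 1))).Prime) (hcm : ∀ c ∈ cmLet [gw a] a n, HoldsG γ c)
    (hl : (∀ j, a + 1 ≤ j → j < n → γ j ∈ normalizer (KW γ a (a + 1) : Set Γ)) →
      Lift B (barG γ (KW γ a (a + 1)) (a + 1) n) (a + 1)) (h1 : γ a ^ p = 1) (h2 : γ a ≠ 1)
    (h3 : ¬ HoldsG γ ([gw (a + 1), gw (a + 2)], [gw (a + 2), gw (a + 1)])) :
    (∀ y ∈ KW γ a n, Commute y (γ a)) ∧ Nat.card (center (KW γ a n)) = p ∧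
      Nonempty (KW γ a n ⧸ center (KW γ a n) ≃* K B (a + 1)) := by
  have := Fact.mk hp
  have hc : ∀ y ∈ KW γ a n, Commute y (γ a) := fun y hy => by
    have := comm_KW hn hcm y hy
    rwa [ppG_cons, ppG_nil, mul_one, spG_gw γ (show a < 128 by omega)] at this
  have hc' : ∀ y ∈ KW γ a n, y ∈ centralizer (KW γ a (a + 1) : Set Γ) := fun y hy x hx => by
    rw [KW_one] at hx
    obtain ⟨k, rfl⟩ := hx
    exact ((hc y hy).zpow_right k).eq.symm
  have hN : ∀ j, a + 1 ≤ j → j < n → γ j ∈ normalizer (KW γ a (a + 1) : Set Γ) := fun j b1 b2 =>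
    centralizer_le_normalizer _ (hc' _ (mem_KW γ (by omega) b2))
  obtain ⟨φ, hφ⟩ := hl hN
  have hx := ext_of_lift hN hφ (inj_of_simple ⟨⟨_, gp_mem_K _ le_rfl⟩, by
    rw [hφ _ le_rfl]
    refine barG_ne_one hN le_rfl (by omega) fun hm => h3 ?_
    simpa only [HoldsG, ppG_cons, ppG_nil, mul_one, spG_gw γ (show a + 1 < 128 by omega),
      spG_gw γ (show a + 2 < 128 by omega)] using hc' _ (mem_KW γ (by omega) ha) _ hm⟩)
  rw [KW_sup γ (by omega) (by omega)] at hx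
  obtain ⟨ψ, hs, hk⟩ := hx
  have hz := center_eq_ker' (not_comm_of_simple hS) hs (fun x hx => mem_center_iff.2 fun y =>
    Subtype.ext (hc' y y.2 x (by rw [hk] at hx; exact hx)).symm)
  refine ⟨hc, ?_, ⟨(QuotientGroup.quotientMulEquivOfEq hz).trans
    (QuotientGroup.quotientKerEquivOfSurjective ψ hs)⟩⟩
  rw [hz, hk, Nat.card_congr (subgroupOfEquivOfLe (KW_le fun j _ _ =>
    mem_KW γ (by omega) (by omega))).toEquiv, KW_one, Nat.card_zpowers, orderOf_eq_prime h1 h2]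

theorem card_of_center {D S : Type*} [Group D] [Group S] {p m : ℕ} (h1 : Nat.card (center D) = p)
    (e : D ⧸ center D ≃* S) (h2 : Nat.card S = m) : Nat.card D = m * p := by
  rw [card_eq_card_quotient_mul_card_subgroup (center D), h1, Nat.card_congr e.toEquiv, h2]

theorem KW_zero (γ : ℕ → Γ) : KW γ 0 0 = ⊥ := eq_bot_iff.2 (KW_le fun j _ b2 => by omega)

theorem nz_zero (γ : ℕ → Γ) (t n : ℕ) :
    ∀ j, t ≤ j → j < n → γ j ∈ normalizer (KW γ 0 0 : Set Γ) := fun j _ _ => by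
  rw [KW_zero, normalizer_eq_top]; trivial

theorem iso_of_win {t n : ℕ} (hn : t < n) [IsSimpleGroup (K B t)]
    (hl : Lift B (barG γ (KW γ 0 0) t n) t) (h : γ t ≠ 1) : Nonempty (KW γ t n ≃* K B t) := by
  obtain ⟨φ, hφ⟩ := hl
  have hx := ext_of_lift (nz_zero γ t n) hφ (inj_of_simple ⟨⟨_, gp_mem_K _ le_rfl⟩, by
    rw [hφ _ le_rfl]
    exact barG_ne_one (nz_zero γ t n) le_rfl hn (by rwa [KW_zero, mem_bot])⟩)
  rw [KW_zero, bot_sup_eq] at hx
  obtain ⟨ψ, hs, hk⟩ := hx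
  exact ⟨MulEquiv.ofBijective ψ ⟨by rwa [← MonoidHom.ker_eq_bot_iff, ← bot_subgroupOf], hs⟩⟩

theorem inj_of_card {t : ℕ} [Finite (K B t)] {φ : K B t →* Γ} (hφ : IsLift B γ t φ)
    (h : Nat.card (K B t) = Nat.card (KG γ t)) : Function.Injective φ := by
  rw [← hφ.range] at h
  exact fun _ _ e => ((Nat.bijective_iff_surjective_and_card φ.rangeRestrict).2
    ⟨φ.rangeRestrict_surjective, h⟩).1 (Subtype.ext e)

end Cfsg.Agent.Spor
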