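import Cfsg.Agent.Lib.Spor.Pc
import Cfsg.Agent.Lib.PGroup.Extraspecial

/-!
Extraspecial groups from symplectic bases; claims modulo a normal subgroup.
-/

set_option autoImplicit false

namespace Cfsg.Agent.Spor

open Cfsg.Agent.PG Subgroup Cfsg.Agent.Lib.PGroup Cfsg.Agent.Lib.Transfer
open scoped commutatorElement

variable {Γ : Type*} [Group Γ] {γ : ℕ → Γ}

theorem mem_or_of_sq {X : Subgroup Γ} {y : Γ} (hy : y ∈ normalizer (X : Set Γ)) (h2 : y * y ∈ X) :
    ∀ c ∈ X ⊔ zpowers y, c ∈ X ∨ c * y⁻¹ ∈ X := by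
  have h1 : ∀ c ∈ X, y * c * y⁻¹ ∈ X := fun c hc => (mem_normalizer_iff.1 hy c).1 hc
  have h3 : ∀ c ∈ X, y⁻¹ * c * y ∈ X := fun c hc => by
    simpa using (mem_normalizer_iff.1 (inv_mem hy) c).1 hc
  let S : Subgroup Γ :=
    { carrier := {c | c ∈ X ∨ c * y⁻¹ ∈ X}
      one_mem' := Or.inl (one_mem _)
      mul_mem' := by
        rintro a b (ha | ha) (hb | hb)
        · exact Or.inl (mul_mem ha hb)
        · exact Or.inr (by simpa [mul_assoc] using mul_mem ha hb)
        · exact Or.inr (by simpa [mul_assoc] using mul_mem ha (h1 b hb))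
        · exact Or.inl (by simpa [mul_assoc] using mul_mem ha (mul_mem (h1 _ hb) h2))
      inv_mem' := by
        rintro a (ha | ha)
        · exact Or.inl (inv_mem ha)
        · exact Or.inr (by simpa [mul_assoc] using mul_mem (h3 _ (inv_mem ha)) (inv_mem h2)) }
  exact fun c hc => (sup_le (fun _ h => Or.inl h)
    (zpowers_le_of_mem (Or.inr (by simp))) : X ⊔ zpowers y ≤ S) hc

theorem es_build [Finite Γ] {z x y : Γ} {C : Subgroup Γ} (h : IsES 2 z C) (hx : x * x = 1)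
    (hy : y * y = 1) (hxy : x * y = z * (y * x)) (hxc : x ∈ centralizer (C : Set Γ))
    (hyc : y ∈ centralizer (C : Set Γ)) :
    IsES 2 z (C ⊔ zpowers x ⊔ zpowers y) ∧
      Nat.card ↥(C ⊔ zpowers x ⊔ zpowers y) = Nat.card C * 2 * 2 := by
  have : Fact (Nat.Prime 2) := ⟨Nat.prime_two⟩
  have hz1 : z ≠ 1 := fun e => by have := h.ord; rw [e, orderOf_one] at this; omega
  have hne : x * y ≠ y * x := fun e => hz1 (by rw [e] at hxy; simpa using hxy.symm)
  have l1 : C ⊔ zpowers x ≤ centralizer {x} := sup_le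
    (fun c hc => mem_centralizer_singleton_iff.2 (hxc c hc))
    (zpowers_le_of_mem (mem_centralizer_singleton_iff.2 rfl))
  have e1 : ⁅x, y⁆ = z := by rw [commutatorElement_def, hxy]; group
  have hyN : y ∈ normalizer ((C ⊔ zpowers x : Subgroup Γ) : Set Γ) := by
    refine mem_normalizer_sup_zpowers (centralizer_le_normalizer _ hyc) ?_
    have : y * x * y⁻¹ = z⁻¹ * x := by rw [← e1, commutatorElement_def]; group
    rw [this]
    exact mul_mem (mem_sup_left (inv_mem h.mem)) (mem_sup_right (mem_zpowers x))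
  have hzc : C ⊔ zpowers x ⊔ zpowers y ≤ centralizer (zpowers z : Set Γ) :=
    sup_le (sup_le (fun c hc a ha => (h.commute ha hc).eq)
      (zpowers_le_of_mem (centralizer_le h.zpowers_le hxc)))
      (zpowers_le_of_mem (centralizer_le h.zpowers_le hyc))
  let T : Γ → Subgroup Γ := fun a =>
    { carrier := {b | ⁅a, b⁆ ∈ zpowers z ∧ b ∈ centralizer (zpowers z : Set Γ)}
      one_mem' := ⟨by simp, one_mem _⟩
      mul_mem' := fun {b c} hb hc => ⟨by
        have : ⁅a, b * c⁆ = ⁅a, b⁆ * (b * ⁅a, c⁆ * b⁻¹) := by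
          simp only [commutatorElement_def]; group
        rw [this, ← hb.2 _ hc.1, mul_inv_cancel_right]
        exact mul_mem hb.1 hc.1, mul_mem hb.2 hc.2⟩
      inv_mem' := fun {b} hb => ⟨by
        have : ⁅a, b⁻¹⁆ = b⁻¹ * (⁅a, b⁆⁻¹ * b) := by
          simp only [commutatorElement_def]; group
        rw [this, hb.2 _ (inv_mem hb.1), inv_mul_cancel_left]
        exact inv_mem hb.1, inv_mem hb.2⟩ }
  have c0 : ∀ a b : Γ, a * b = b * a → ⁅a, b⁆ ∈ zpowers z := fun a b e => by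
    rw [commutatorElement_eq_one_iff_mul_comm.2 e]; exact one_mem _
  have sy : ∀ a b : Γ, ⁅a, b⁆ ∈ zpowers z → ⁅b, a⁆ ∈ zpowers z := fun a b e => by
    rw [← commutatorElement_inv]; exact inv_mem e
  have mx : x ∈ C ⊔ zpowers x ⊔ zpowers y := mem_sup_left (mem_sup_right (mem_zpowers x))
  have my : y ∈ C ⊔ zpowers x ⊔ zpowers y := mem_sup_right (mem_zpowers y)
  have mc : C ≤ C ⊔ zpowers x ⊔ zpowers y := le_sup_left.trans le_sup_left
  have gen : ∀ a, (∀ c ∈ C, ⁅a, c⁆ ∈ zpowers z) → ⁅a, x⁆ ∈ zpowers z → ⁅a, y⁆ ∈ zpowers z →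
      C ⊔ zpowers x ⊔ zpowers y ≤ T a := fun a h1 h2 h3 =>
    sup_le (sup_le (fun c hc => ⟨h1 c hc, hzc (mc hc)⟩) (zpowers_le_of_mem ⟨h2, hzc mx⟩))
      (zpowers_le_of_mem ⟨h3, hzc my⟩)
  have hcomm : ∀ a ∈ C ⊔ zpowers x ⊔ zpowers y, ∀ b ∈ C ⊔ zpowers x ⊔ zpowers y,
      ⁅a, b⁆ ∈ zpowers z := fun a ha b hb => (gen a
    (fun c hc => sy _ _ (gen c (h.comm c hc) (c0 _ _ (hxc c hc)) (c0 _ _ (hyc c hc)) ha).1)
    (sy _ _ (gen x (fun c hc => c0 _ _ (hxc c hc).symm) (c0 _ _ rfl) (e1 ▸ mem_zpowers z) ha).1)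
    (sy _ _ (gen y (fun c hc => c0 _ _ (hyc c hc).symm) (sy _ _ (e1 ▸ mem_zpowers z))
      (c0 _ _ rfl) ha).1) hb).1
  refine ⟨⟨mc h.mem, h.ord, hcomm, ?_, le_antisymm ?_ (le_inf (h.zpowers_le.trans mc) ?_)⟩, ?_⟩
  · let S : Subgroup Γ :=
      { carrier := {a | a ∈ C ⊔ zpowers x ⊔ zpowers y ∧ a ^ 2 ∈ zpowers z}
        one_mem' := ⟨one_mem _, by simp⟩
        mul_mem' := fun {a b} ha hb => ⟨mul_mem ha.1 hb.1, by
          have : (a * b) ^ 2 = a ^ 2 * ⁅a⁻¹, b⁆ * b ^ 2 := by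
            simp only [commutatorElement_def, sq]; group
          rw [this]
          exact mul_mem (mul_mem ha.2 (hcomm _ (inv_mem ha.1) _ hb.1)) hb.2⟩
        inv_mem' := fun {a} ha => ⟨inv_mem ha.1, by rw [inv_pow]; exact inv_mem ha.2⟩ }
    exact fun a ha => ((sup_le (sup_le (fun c hc => ⟨mc hc, h.pow c hc⟩)
      (zpowers_le_of_mem ⟨mx, by rw [sq, hx]; exact one_mem _⟩))
      (zpowers_le_of_mem ⟨my, by rw [sq, hy]; exact one_mem _⟩) : _ ≤ S) ha).2
  · rintro c ⟨h1, h2⟩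
    have a1 : c ∈ centralizer {x} := mem_centralizer_singleton_iff.2 (h2 x mx).symm
    have a2 : c ∈ centralizer {y} := mem_centralizer_singleton_iff.2 (h2 y my).symm
    have a3 := (mem_or_of_sq hyN (hy ▸ one_mem _) c h1).resolve_right fun e => hne (by
      have := mul_mem (inv_mem (l1 e)) a1
      simp only [mul_inv_rev, inv_inv, inv_mul_cancel_right] at this
      exact (mem_centralizer_singleton_iff.1 this).symm)
    have a4 := (mem_or_of_sq (centralizer_le_normalizer _ hxc) (hx ▸ one_mem _) c a3).resolve_right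
      fun e => hne (by
        have := mul_mem (inv_mem (mem_centralizer_singleton_iff.2 (hyc _ e))) a2
        simp only [mul_inv_rev, inv_inv, inv_mul_cancel_right] at this
        exact mem_centralizer_singleton_iff.1 this)
    exact h.center.le ⟨a4, centralizer_le mc h2⟩
  · exact fun c hc a ha => (hzc ha c hc).symm
  · rw [card_sup_zpowers hyN (fun e => hne (mem_centralizer_singleton_iff.1 (l1 e)).symm)
      (by rw [sq, hy]; exact one_mem _), card_sup_zpowers (centralizer_le_normalizer _ hxc)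
      (fun e => hne (hyc x e)) (by rw [sq, hx]; exact one_mem _)]

theorem KW_succ (γ : ℕ → Γ) {a b : ℕ} (h : a ≤ b) : KW γ a (b + 1) = KW γ a b ⊔ zpowers (γ b) :=
  le_antisymm (KW_le fun j h1 h2 => by
    rcases Nat.lt_succ_iff_lt_or_eq.1 h2 with h3 | rfl
    · exact mem_sup_left (mem_KW γ h1 h3)
    · exact mem_sup_right (mem_zpowers _))
    (sup_le (KW_le fun j h1 h2 => mem_KW γ h1 (by omega))
      (zpowers_le_of_mem (mem_KW γ h (by omega))))

/-- claims for the letters `z, x₁, y₁, …, x_k, y_k` from `a` on -/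
def esClaims (a k : ℕ) : List Claim :=
  ([gw a, gw a], []) :: (List.range k).flatMap fun i =>
    ([gw (a + 1 + 2 * i), gw (a + 1 + 2 * i)], []) ::
    ([gw (a + 1 + 2 * i + 1), gw (a + 1 + 2 * i + 1)], []) ::
    ([gw (a + 1 + 2 * i), gw (a + 1 + 2 * i + 1)],
      [gw a, gw (a + 1 + 2 * i + 1), gw (a + 1 + 2 * i)]) ::
    (cmLet [gw (a + 1 + 2 * i)] a (a + 1 + 2 * i) ++ cmLet [gw (a + 1 + 2 * i + 1)] a (a + 1 + 2 * i))

theorem comm_KW {e : List ℕ} {a b : ℕ} (hb : b ≤ 128) (h : ∀ c ∈ cmLet e a b, HoldsG γ c) :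
    Spor.ppG γ e ∈ centralizer (KW γ a b : Set Γ) := by
  have : KW γ a b ≤ centralizer {Spor.ppG γ e} := KW_le fun j h1 h2 => by
    have := h _ (List.mem_map.2 ⟨j, by rw [List.mem_range'_1]; omega, rfl⟩)
    unfold HoldsG at this
    rw [ppG_cons, ppG_append, ppG_cons, ppG_nil, mul_one, spG_gw γ (by omega)] at this
    exact mem_centralizer_singleton_iff.2 this
  exact fun y hy => mem_centralizer_singleton_iff.1 (this hy)

theorem es_of_claims [Finite Γ] {a k : ℕ} (ha : a + 1 + 2 * k ≤ 128) (h1 : γ a ≠ 1)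
    (h : ∀ c ∈ esClaims a k, HoldsG γ c) :
    IsES 2 (γ a) (KW γ a (a + 1 + 2 * k)) ∧ Nat.card (KW γ a (a + 1 + 2 * k)) = 2 * 4 ^ k := by
  have : Fact (Nat.Prime 2) := ⟨Nat.prime_two⟩
  have key : ∀ i, i ≤ k → IsES 2 (γ a) (KW γ a (a + 1 + 2 * i)) ∧
      Nat.card (KW γ a (a + 1 + 2 * i)) = 2 * 4 ^ i := by
    intro i
    induction i with
    | zero =>
      intro _
      have h2 : orderOf (γ a) = 2 := orderOf_eq_prime (by
        simpa [HoldsG, spG_gw γ (show a < 128 by omega), sq] using h _ List.mem_cons_self) h1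
      have : KW γ a (a + 1 + 2 * 0) = zpowers (γ a) := le_antisymm (KW_le fun j b1 b2 => by
        rw [show j = a by omega]; exact mem_zpowers _)
        (zpowers_le_of_mem (mem_KW γ le_rfl (by omega)))
      rw [this]
      exact ⟨isES_zpowers h2, by rw [Nat.card_zpowers, h2]; rfl⟩
    | succ i ih =>
      intro hi
      obtain ⟨b1, b2⟩ := ih (by omega)
      have hm := fun c hc => h c (List.mem_cons_of_mem _
        (List.mem_flatMap.2 ⟨i, List.mem_range.2 hi, hc⟩))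
      simp only [List.forall_mem_cons, List.forall_mem_append] at hm
      obtain ⟨c1, c2, c3, c4, c5⟩ := hm
      have c6 := comm_KW (by omega) c4
      have c7 := comm_KW (by omega) c5
      have p0 := spG_gw γ (show a < 128 by omega)
      have p1 := spG_gw γ (show a + 1 + 2 * i < 128 by omega)
      have p2 := spG_gw γ (show a + 1 + 2 * i + 1 < 128 by omega)
      simp only [HoldsG, ppG_cons, ppG_nil, mul_one, p0, p1, p2] at c1 c2 c3 c6 c7
      have := es_build b1 c1 c2 c3 c6 c7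
      rw [← KW_succ γ (by omega), ← KW_succ γ (by omega), b2] at this
      exact ⟨this.1, this.2.trans (by ring)⟩
  exact key k le_rfl

/-- claims that the letters from `t` on normalise the group of the letters from `a` on -/
def nzClaims (t a : ℕ) (rows : List (List ℕ)) : List Claim :=
  (rows.zipIdx t).flatMap fun q => (q.1.zipIdx a).map fun u => ([gw q.2, gw u.2], [2 * u.1, gw q.2])

/-- structural test -/
noncomputable def nzOK (t n a b : ℕ) (rows : List (List ℕ)) : Bool :=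
  andB (Nat.ble n 128) <| andB (Nat.ble b 128) <| andB (Nat.beq (t + rows.length) n) <|
  allL rows fun r => andB (Nat.beq (a + r.length) b) (allL r fun w => winF (ivl a b) w w)

theorem nz_of_claims [Finite Γ] {t n a b : ℕ} {rows : List (List ℕ)}
    (h : nzOK t n a b rows = true) (hc : ∀ c ∈ nzClaims t a rows, HoldsG γ c) :
    ∀ j, t ≤ j → j < n → γ j ∈ normalizer (KW γ a b : Set Γ) := by
  unfold nzOK at h
  simp only [andB_eq, Bool.and_eq_true, Nat.ble_eq, Nat.beq_eq] at h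
  obtain ⟨h1, h2, h3, h4⟩ := h
  intro j a1 a2
  have hj : j - t < rows.length := by omega
  have h5 := allL_spec h4 _ (List.getElem_mem hj)
  simp only [Bool.and_eq_true, Nat.beq_eq] at h5
  have : KW γ a b ≤ conjIn (KW γ a b) (γ j) := KW_le fun i b1 b2 => by
    have hi : i - a < rows[j - t].length := by omega
    have := hc ([gw j, gw i], [2 * rows[j - t][i - a], gw j])
      (List.mem_flatMap.2 ⟨(rows[j - t], j), by
        rw [List.mk_mem_zipIdx_iff_le_and_getElem?_sub]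
        exact ⟨a1, by simp⟩, List.mem_map.2 ⟨(rows[j - t][i - a], i), by
        rw [List.mk_mem_zipIdx_iff_le_and_getElem?_sub]
        exact ⟨b1, by simp⟩, rfl⟩⟩)
    unfold HoldsG at this
    simp only [ppG_cons, ppG_nil, mul_one, spG_even, spG_gw γ (show j < 128 by omega),
      spG_gw γ (show i < 128 by omega)] at this
    rw [mem_conjIn, this, mul_inv_cancel_right]
    exact wpG_mem_KW (allL_spec h5.2 _ (List.getElem_mem hi))
  exact mem_normalizer_fintype fun n hn => this hn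

theorem wpFG_congr_win {γ γ' : ℕ → Γ} {m f w : ℕ} (hγ : ∀ j, m.testBit j = true → γ j = γ' j)
    (h : winF m f w = true) : wpFG γ f w = wpFG γ' f w := by
  induction f generalizing w with
  | zero => rfl
  | succ f ih =>
    show (if w ≤ 1 then 1 else Spor.lpG γ (w % 256) * wpFG γ f (w / 256)) =
      if w ≤ 1 then 1 else Spor.lpG γ' (w % 256) * wpFG γ' f (w / 256)
    split_ifs with hw
    · rfl
    · have h' : iteB (Nat.ble w 1) true
        (andB (bit m (w % 256 / 2)) (winF m f (w / 256))) = true := h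
      have : Nat.ble w 1 = false := by rw [← Bool.not_eq_true, Nat.ble_eq]; exact hw
      rw [this, iteB_false, andB_eq, Bool.and_eq_true, bit_eq] at h'
      rw [ih h'.2]
      unfold Spor.lpG
      rw [hγ _ h'.1]

/-- all letters of a product lie in the bitmap `m` -/
noncomputable def winP (m : ℕ) (l : List ℕ) : Bool :=
  allL l fun s => force (Nat.div s 2) fun w => winF m w w

theorem ppG_congr_win {γ γ' : ℕ → Γ} {m : ℕ} {l : List ℕ}
    (hγ : ∀ j, m.testBit j = true → γ j = γ' j) (h : winP m l = true) :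
    Spor.ppG γ l = Spor.ppG γ' l := by
  have h1 := allL_spec h
  unfold Spor.ppG
  congr 1
  refine List.map_congr_left fun s hs => ?_
  have h2 := h1 s hs
  rw [force_eq] at h2
  unfold Spor.spG wpG
  rw [wpFG_congr_win hγ (show winF m (s / 2) (s / 2) = true from h2)]

/-- the letters in `[t, n)` inside the normaliser of `N` -/
noncomputable def nzG (γ : ℕ → Γ) (N : Subgroup Γ) (t n j : ℕ) : normalizer (N : Set Γ) := by
  classical exact if h : t ≤ j ∧ j < n ∧ γ j ∈ normalizer (N : Set Γ) then ⟨γ j, h.2.2⟩ else 1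

/-- the letters in `[t, n)` modulo `N` -/
noncomputable def barG (γ : ℕ → Γ) (N : Subgroup Γ) (t n j : ℕ) :
    normalizer (N : Set Γ) ⧸ N.subgroupOf (normalizer (N : Set Γ)) :=
  QuotientGroup.mk' _ (nzG γ N t n j)

theorem barG_of_le (γ : ℕ → Γ) (N : Subgroup Γ) {t n j : ℕ} (h : n ≤ j) : barG γ N t n j = 1 := by
  unfold barG nzG
  rw [dif_neg (by omega), map_one]

theorem nzG_val {N : Subgroup Γ} {t n : ℕ}
    (hN : ∀ j, t ≤ j → j < n → γ j ∈ normalizer (N : Set Γ)) {j : ℕ} (h1 : t ≤ j) (h2 : j < n) :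
    (nzG γ N t n j : Γ) = γ j := by
  unfold nzG
  rw [dif_pos ⟨h1, h2, hN j h1 h2⟩]

theorem ppG_nzG {N : Subgroup Γ} {t n : ℕ}
    (hN : ∀ j, t ≤ j → j < n → γ j ∈ normalizer (N : Set Γ)) {l : List ℕ}
    (h : winP (ivl t n) l = true) : ((Spor.ppG (nzG γ N t n) l : normalizer (N : Set Γ)) : Γ) =
      Spor.ppG γ l :=
  (map_ppG (normalizer (N : Set Γ)).subtype _ l).trans (ppG_congr_win (fun j hj =>
    nzG_val hN ((testBit_ivl _ _ _).1 hj).1 ((testBit_ivl _ _ _).1 hj).2) h)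

/-- claims corrected by words -/
def modClaims (l : List Claim) (ws : List ℕ) : List Claim :=
  (l.zip ws).map fun q => (q.1.1 ++ [2 * q.2], q.1.2)

/-- structural test -/
noncomputable def modOK (t n a b : ℕ) (l : List Claim) (ws : List ℕ) : Bool :=
  andB (Nat.beq l.length ws.length) <| andB (allL ws fun w => winF (ivl a b) w w) <|
    allL l fun c => andB (winP (ivl t n) c.1) (winP (ivl t n) c.2)

theorem holds_mod {t n a b : ℕ}
    (hN : ∀ j, t ≤ j → j < n → γ j ∈ normalizer (KW γ a b : Set Γ)) {l : List Claim}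
    {ws : List ℕ} (h : modOK t n a b l ws = true) (hc : ∀ c ∈ modClaims l ws, HoldsG γ c) :
    ∀ c ∈ l, HoldsG (barG γ (KW γ a b) t n) c := by
  unfold modOK at h
  simp only [andB_eq, Bool.and_eq_true, Nat.beq_eq] at h
  intro c hc'
  rw [← List.map_fst_zip h.1.le] at hc'
  obtain ⟨q, hq, rfl⟩ := List.mem_map.1 hc'
  have h1 := hc _ (List.mem_map.2 ⟨q, hq, rfl⟩)
  have h2 := allL_spec h.2.2 _ (List.of_mem_zip hq).1
  have h3 := wpG_mem_KW (γ := γ) (allL_spec h.2.1 _ (List.of_mem_zip hq).2)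
  rw [Bool.and_eq_true] at h2
  unfold HoldsG at h1 ⊢
  rw [ppG_append, ppG_cons, ppG_nil, mul_one, spG_even] at h1
  unfold barG
  rw [← map_ppG, ← map_ppG]
  apply QuotientGroup.eq.2
  rw [mem_subgroupOf, coe_mul, coe_inv, ppG_nzG hN h2.1, ppG_nzG hN h2.2, ← h1,
    inv_mul_cancel_left]
  exact h3

/-- the extension given by a lift modulo `N` -/
theorem ext_of_lift {A : List Net} {N : Subgroup Γ} {t n : ℕ}
    (hN : ∀ j, t ≤ j → j < n → γ j ∈ normalizer (N : Set Γ))
    {φ : K A t →* _} (hφ : IsLift A (barG γ N t n) t φ) (hi : Function.Injective φ) :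
    ∃ ψ : ↥(N ⊔ KW γ t n) →* K A t, Function.Surjective ψ ∧ ψ.ker = N.subgroupOf _ := by
  have hle : N ⊔ KW γ t n ≤ normalizer (N : Set Γ) := sup_le le_normalizer (KW_le hN)
  let π := (QuotientGroup.mk' (N.subgroupOf (normalizer (N : Set Γ)))).comp (inclusion hle)
  have h1 : ∀ x, π x ∈ φ.range := by
    have : N ⊔ KW γ t n ≤ (φ.range.comap (QuotientGroup.mk' _)).map
        (normalizer (N : Set Γ)).subtype := by
      refine sup_le (fun x hx => ⟨⟨x, le_normalizer hx⟩, ⟨1, ?_⟩, rfl⟩) (KW_le fun j h1 h2 =>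
        ⟨nzG γ N t n j, ⟨_, hφ j h1⟩, nzG_val hN h1 h2⟩)
      rw [map_one, eq_comm]
      exact (QuotientGroup.eq_one_iff _).2 hx
    intro x
    obtain ⟨⟨y, hy⟩, h2, h3⟩ := this x.2
    obtain rfl : y = x := h3
    exact h2
  let ψ := (MonoidHom.ofInjective hi).symm.toMonoidHom.comp (π.codRestrict _ h1)
  have hψ : ∀ x, φ (ψ x) = π x := fun x => MonoidHom.apply_ofInjective_symm hi _
  refine ⟨ψ, fun σ => ?_, ?_⟩
  · have : φ.range ≤ π.range := by
      rw [hφ.range]
      refine KG_le fun j hj => ?_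
      by_cases h2 : j < n
      · exact ⟨⟨γ j, mem_sup_right (mem_KW γ hj h2)⟩,
          congrArg (QuotientGroup.mk' _) (Subtype.ext (nzG_val hN hj h2).symm)⟩
      · rw [barG_of_le γ N (by omega)]; exact one_mem _
    obtain ⟨x, hx⟩ := this ⟨σ, rfl⟩
    exact ⟨x, hi (by rw [hψ, hx])⟩
  · ext x
    rw [MonoidHom.mem_ker, ← hi.eq_iff, hψ, map_one]
    exact QuotientGroup.eq_one_iff _

theorem barG_ne_one {N : Subgroup Γ} {t n : ℕ}
    (hN : ∀ j, t ≤ j → j < n → γ j ∈ normalizer (N : Set Γ)) {j : ℕ} (h1 : t ≤ j) (h2 : j < n)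
    (h : γ j ∉ N) : barG γ N t n j ≠ 1 := fun e =>
  h (nzG_val hN h1 h2 ▸ mem_subgroupOf.1 ((QuotientGroup.eq_one_iff _).1 e))

/-- injectivity on a group of permutations from injectivity on a normal subgroup -/
theorem inj_of_self {Q R : Subgroup (Equiv.Perm ℕ)} (hle : R ≤ Q) [(R.subgroupOf Q).Normal]
    {φ : Q →* Γ} (hi : Function.Injective (φ.comp (inclusion hle))) {B : Set ℕ}
    (hB : ∀ σ ∈ Q, ∀ i, σ i ∈ B ↔ i ∈ B) {b : ℕ} (hb : b ∈ B) (htr : ∀ i ∈ B, ∃ σ ∈ R, σ b = i)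
    (hself : ∀ i ∈ B, i ≠ b → ∃ σ ∈ R, σ b = b ∧ σ i ≠ i) (hf : FixTriv Q B) :
    Function.Injective φ := by
  rw [injective_iff_map_eq_one] at hi ⊢
  intro σ hσ
  have hc : ∀ τ ∈ R, ∀ i, τ ((σ : Equiv.Perm ℕ) i) = (σ : Equiv.Perm ℕ) (τ i) := by
    intro τ hτ i
    have h1 : σ * ⟨τ, hle hτ⟩ * σ⁻¹ ∈ R.subgroupOf Q :=
      Normal.conj_mem inferInstance _ (show (⟨τ, hle hτ⟩ : Q) ∈ R.subgroupOf Q from hτ) σ
    have h2 := hi (⟨_, h1⟩ * ⟨τ, hτ⟩⁻¹) (by
      show φ (σ * ⟨τ, hle hτ⟩ * σ⁻¹ * ⟨τ, hle hτ⟩⁻¹) = 1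
      simp [hσ])
    have h3 : (σ : Equiv.Perm ℕ) * τ * (σ : Equiv.Perm ℕ)⁻¹ * τ⁻¹ = 1 := congrArg Subtype.val h2
    rw [mul_inv_eq_one, mul_inv_eq_iff_eq_mul] at h3
    exact (congrArg (fun x : Equiv.Perm ℕ => x i) h3).symm
  have h1 : (σ : Equiv.Perm ℕ) b = b := by
    by_contra h2
    obtain ⟨τ, h3, h4, h5⟩ := hself _ ((hB _ σ.2 b).2 hb) h2
    exact h5 (by rw [hc τ h3, h4])
  refine Subtype.ext (hf _ σ.2 fun i hi' => ?_)
  obtain ⟨τ, h3, rfl⟩ := htr i hi'
  rw [← hc τ h3, h1]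

end Cfsg.Agent.Spor
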