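import Cfsg.Agent.Lib.Spor.Cent

/-!
Packaging the structure of a centraliser.
-/

set_option autoImplicit false

namespace Cfsg.Agent.Spor

open Cfsg.Agent.PG Subgroup Cfsg.Agent.Lib.PGroup
open scoped commutatorElement

variable {Γ : Type*} [Group Γ]

theorem neg_zip {γ : ℕ → Γ} {l : List Claim} {p : List (ℕ × ℕ)} (hl : l.length = p.length)
    (h : ∀ c ∈ (l.zip p).map Prod.fst, ¬ HoldsG γ c) : ∀ c ∈ l, ¬ HoldsG γ c := by
  rwa [List.map_fst_zip hl.le] at h

theorem card_comap_of_le {C : Type*} [Group C] {ι : C →* Γ} (hi : Function.Injective ι)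
    {X : Subgroup Γ} (h : X ≤ ι.range) : Nat.card (X.comap ι) = Nat.card X := by
  rw [← card_map_of_injective hi, map_comap_eq_self h]

theorem isES_comap {C : Type*} [Group C] {ι : C →* Γ} (hi : Function.Injective ι) {p : ℕ} {z : C}
    {X : Subgroup Γ} (h : X ≤ ι.range) (hes : IsES p (ι z) X) : IsES p z (X.comap ι) := by
  have hz : ∀ x, ι x ∈ zpowers (ι z) ↔ x ∈ zpowers z := fun x => by
    rw [← MonoidHom.map_zpowers, mem_map_iff_mem hi]
  refine ⟨hes.mem, (orderOf_injective ι hi z).symm.trans hes.ord, fun x hx y hy => (hz _).1 ?_,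
    fun x hx => (hz _).1 ?_, ?_⟩
  · rw [map_commutatorElement]; exact hes.comm _ hx _ hy
  · rw [map_pow]; exact hes.pow _ hx
  · ext x
    rw [← hz, ← hes.center]
    refine and_congr Iff.rfl ⟨fun hx y hy => ?_, fun hx y hy => hi ?_⟩
    · obtain ⟨y, rfl⟩ := h hy
      rw [← map_mul, ← map_mul, hx y hy]
    · rw [map_mul, map_mul]; exact hx _ hy

/-- the centraliser of `z` in `G` maps onto `S` with kernel a copy of `N` -/
theorem cent_pack {G D N : Subgroup Γ} {z : Γ} (hz : z ∈ G) (hle : D ≤ G)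
    (h1 : ∀ y ∈ D, Commute y z) (h2 : ∀ y ∈ G, Commute y z → y ∈ D) {S : Type*} [Group S]
    {ψ : D →* S} (hs : Function.Surjective ψ) (hk : ψ.ker = N.subgroupOf D) :
    ∃ (ι : centralizer ({⟨z, hz⟩} : Set G) →* Γ) (χ : centralizer ({⟨z, hz⟩} : Set G) →* S),
      Function.Injective ι ∧ ι.range = D ∧ ι ⟨⟨z, hz⟩, mem_centralizer_singleton_iff.2 rfl⟩ = z ∧
      Function.Surjective χ ∧ χ.ker = N.comap ι := by
  let e := centEquiv hz hle h1 h2
  refine ⟨D.subtype.comp e.toMonoidHom, ψ.comp e.toMonoidHom, D.subtype_injective.comp e.injective,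
    ?_, rfl, hs.comp e.surjective, ?_⟩
  · rw [MonoidHom.range_comp, MonoidHom.range_eq_top.2 e.surjective, ← MonoidHom.range_eq_map,
      range_subtype]
  · rw [← MonoidHom.comap_ker, hk, ← comap_comap]; rfl

theorem normal_comap_of_le {C : Type*} [Group C] {ι : C →* Γ} {X : Subgroup Γ}
    (h : ι.range ≤ normalizer (X : Set Γ)) : (X.comap ι).Normal :=
  ⟨fun n hn g => by
    rw [mem_comap, map_mul, map_mul, map_inv]
    exact (mem_normalizer_iff.1 (h ⟨g, rfl⟩) _).1 hn⟩

theorem quot_comap {C S : Type*} [Group C] [Group S] {χ : C →* S} (hs : Function.Surjective χ)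
    (T : Subgroup S) :
    Nonempty (T.comap χ ⧸ χ.ker.subgroupOf (T.comap χ) ≃* T) :=
  ⟨(QuotientGroup.quotientMulEquivOfEq (by
    ext x
    rw [mem_subgroupOf, MonoidHom.mem_ker, MonoidHom.mem_ker, Subtype.ext_iff]
    rfl)).trans (QuotientGroup.quotientKerEquivOfSurjective (χ.subgroupComap T)
      (χ.subgroupComap_surjective_of_surjective T hs))⟩

theorem not_mem_of_coprime {X : Subgroup Γ} {p : ℕ} (hp : p.Prime) {y : Γ} (hyp : y ^ p = 1)
    (hy1 : y ≠ 1) (h : ¬ p ∣ Nat.card X) : y ∉ X := fun hy => h (prime_dvd_card hp hy hyp hy1)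

end Cfsg.Agent.Spor
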