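import Cfsg.Agent.Lib.Spor.Gen2

/-!
Prime powers dividing the order of a group, from a chain of normalising elements.
-/

set_option autoImplicit false

namespace Cfsg.Agent.Spor

open Cfsg.Agent.PG Subgroup

variable {Γ : Type*} [Group Γ] {γ : ℕ → Γ}

theorem step_dvd' {X : Subgroup Γ} {p : ℕ} (hp : p.Prime) {y : Γ}
    (hy : y ∈ normalizer (X : Set Γ)) (hyp : y ^ p ∈ X) (hyX : y ∉ X) :
    p * Nat.card X ∣ Nat.card ↥(X ⊔ zpowers y) := by
  have := Fact.mk hp
  have hN : (X.subgroupOf (X ⊔ zpowers y)).Normal := normal_subgroupOf_of_le_normalizer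
    (sup_le le_normalizer (zpowers_le_of_mem hy))
  rw [card_eq_card_quotient_mul_card_subgroup (X.subgroupOf (X ⊔ zpowers y)),
    Nat.card_congr (subgroupOfEquivOfLe le_sup_left).toEquiv]
  apply Nat.mul_dvd_mul_right
  let y' : ↥(X ⊔ zpowers y) := ⟨y, mem_sup_right (mem_zpowers y)⟩
  have h1 : orderOf (y' : _ ⧸ X.subgroupOf (X ⊔ zpowers y)) = p := by
    apply orderOf_eq_prime
    · rw [← QuotientGroup.mk_pow, QuotientGroup.eq_one_iff]; exact hyp
    · rw [Ne, QuotientGroup.eq_one_iff]; exact hyX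
  rw [← h1]
  exact orderOf_dvd_natCard _

/-- the group generated by the letters in `[a, b)` -/
noncomputable def KW (γ : ℕ → Γ) (a b : ℕ) : Subgroup Γ :=
  closure {x | ∃ j, a ≤ j ∧ j < b ∧ γ j = x}

theorem mem_KW (γ : ℕ → Γ) {a b j : ℕ} (h1 : a ≤ j) (h2 : j < b) : γ j ∈ KW γ a b :=
  subset_closure ⟨j, h1, h2, rfl⟩

theorem KW_le {a b : ℕ} {Q : Subgroup Γ} (h : ∀ j, a ≤ j → j < b → γ j ∈ Q) : KW γ a b ≤ Q := by
  unfold KW
  rw [closure_le]
  rintro _ ⟨j, h1, h2, rfl⟩
  exact h j h1 h2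

theorem wpG_mem_KW {a b w : ℕ} (h : winF (ivl a b) w w = true) : wpG γ w ∈ KW γ a b :=
  wpFG_mem_of_win (fun j hj => mem_KW γ ((testBit_ivl _ _ _).1 hj).1 ((testBit_ivl _ _ _).1 hj).2) h

/-- data for one step -/
structure PcS : Type where
  /-- conjugates of the earlier letters -/
  cj : List ℕ
  /-- the `p`-th power -/
  pw : ℕ
  /-- a letter commuting with the earlier letters only -/
  c : ℕ
  /-- row -/
  r : ℕ
  /-- column -/
  s : ℕ

/-- the claims to prove -/
noncomputable def pcPos (p a : ℕ) (l : List PcS) : List Claim :=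
  (l.zipIdx a).flatMap fun q => (powP [gw q.2] p, [2 * q.1.pw]) ::
    (((q.1.cj.zipIdx a).map fun u => ([gw q.2, gw u.2], [2 * u.1, gw q.2])) ++
    (List.range' a (q.2 - a)).map fun j => ([gw j, gw q.1.c], [gw q.1.c, gw j]))

/-- the claims to refute -/
def pcNeg (a : ℕ) (l : List PcS) : List (Claim × ℕ × ℕ) :=
  (l.zipIdx a).map fun q => (([gw q.2, gw q.1.c], [gw q.1.c, gw q.2]), q.1.r, q.1.s)

/-- structural test -/
noncomputable def pcOK (a : ℕ) (l : List PcS) : Bool :=
  allL (l.zipIdx a) fun q => andB (Nat.blt q.2 128) <| andB (Nat.blt q.1.c 128) <|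
    andB (Nat.beq (a + q.1.cj.length) q.2) <| andB (winF (ivl a q.2) q.1.pw q.1.pw) <|
    allL q.1.cj fun w => winF (ivl a q.2) w w

theorem pc_dvd {G : Subgroup Γ} [Finite G] {p a : ℕ} (hp : p.Prime) {l : List PcS}
    (hG : ∀ j, a ≤ j → j < a + l.length → γ j ∈ G) (h : pcOK a l = true)
    (h1 : ∀ c ∈ pcPos p a l, HoldsG γ c) (h2 : ∀ c ∈ (pcNeg a l).map Prod.fst, ¬ HoldsG γ c) :
    p ^ l.length ∣ Nat.card G := by
  have key : ∀ k, k ≤ l.length → p ^ k ∣ Nat.card (KW γ a (a + k)) := by
    intro k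
    induction k with
    | zero => intro _; simp
    | succ k ih =>
      intro hk
      have hq : (l[k], a + k) ∈ l.zipIdx a := by
        rw [List.mk_mem_zipIdx_iff_le_and_getElem?_sub]
        exact ⟨by omega, by simp⟩
      have h3 := allL_spec h _ hq
      simp only [andB_eq, Bool.and_eq_true, Nat.blt_eq, Nat.beq_eq] at h3
      obtain ⟨a1, a2, a3, a4, a5⟩ := h3
      have hf : Finite (KW γ a (a + k)) :=
        finite_of_le (KW_le (Q := G) fun j b1 b2 => hG j b1 (by omega))
      have d := step_dvd' (X := KW γ a (a + k)) hp (y := γ (a + k)) (mem_normalizer_fintype (by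
          have : KW γ a (a + k) ≤ conjIn (KW γ a (a + k)) (γ (a + k)) := KW_le fun j b1 b2 => by
            have hj : j - a < l[k].cj.length := by omega
            have := h1 ([gw (a + k), gw j], [2 * l[k].cj[j - a], gw (a + k)])
              (List.mem_flatMap.2 ⟨_, hq, List.mem_cons_of_mem _ (List.mem_append_left _
                (List.mem_map.2 ⟨(l[k].cj[j - a], j), by
                  rw [List.mk_mem_zipIdx_iff_le_and_getElem?_sub]
                  exact ⟨b1, by simp⟩, rfl⟩))⟩)
            unfold HoldsG at this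
            simp only [ppG_cons, ppG_nil, mul_one, spG_even, spG_gw γ a1,
              spG_gw γ (show j < 128 by omega)] at this
            rw [mem_conjIn, this, mul_inv_cancel_right]
            exact wpG_mem_KW (allL_spec a5 _ (List.getElem_mem hj))
          exact fun n hn => this hn))
        (by
          have := h1 _ (List.mem_flatMap.2 ⟨_, hq, List.mem_cons_self⟩)
          unfold HoldsG at this
          simp only [ppG_powP, ppG_cons, ppG_nil, mul_one, spG_even, spG_gw γ a1] at this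
          rw [this]
          exact wpG_mem_KW a4)
        (fun hx => by
          have : KW γ a (a + k) ≤ centralizer {γ l[k].c} := KW_le fun j b1 b2 => by
            have := h1 ([gw j, gw l[k].c], [gw l[k].c, gw j])
              (List.mem_flatMap.2 ⟨_, hq, List.mem_cons_of_mem _ (List.mem_append_right _
                (List.mem_map.2 ⟨j, by rw [List.mem_range'_1]; omega, rfl⟩))⟩)
            unfold HoldsG at this
            simp only [ppG_cons, ppG_nil, mul_one, spG_gw γ a2,
              spG_gw γ (show j < 128 by omega)] at this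
            exact mem_centralizer_singleton_iff.2 this
          apply h2 _ (List.mem_map.2 ⟨_, List.mem_map.2 ⟨_, hq, rfl⟩, rfl⟩)
          unfold HoldsG
          simp only [ppG_cons, ppG_nil, mul_one, spG_gw γ a1, spG_gw γ a2]
          exact mem_centralizer_singleton_iff.1 (this hx))
      have hf' : Finite (KW γ a (a + (k + 1))) :=
        finite_of_le (KW_le (Q := G) fun j b1 b2 => hG j b1 (by omega))
      calc p ^ (k + 1) = p * p ^ k := pow_succ' _ _
        _ ∣ _ := Nat.mul_dvd_mul_left p (ih (by omega))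
        _ ∣ _ := d
        _ ∣ _ := card_dvd_of_le (sup_le (KW_le fun j b1 b2 => mem_KW γ b1 (by omega))
          (zpowers_le_of_mem (mem_KW γ (by omega) (by omega))))
  exact (key _ le_rfl).trans (card_dvd_of_le (KW_le hG))

/-- a normal subgroup meeting a simple subgroup contains it -/
theorem le_of_simple {H M : Subgroup Γ} [IsSimpleGroup H]
    (hM : ∀ g ∈ H, ∀ n ∈ M, g * n * g⁻¹ ∈ M) {u : Γ} (h1 : u ∈ H) (h2 : u ∈ M) (h3 : u ≠ 1) :
    H ≤ M := by
  rcases IsSimpleGroup.eq_bot_or_eq_top_of_normal (M.subgroupOf H)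
    ⟨fun n hn g => hM g g.2 n hn⟩ with h | h
  · have h4 : (⟨u, h1⟩ : H) ∈ M.subgroupOf H := h2
    rw [h, mem_bot] at h4
    exact absurd (congrArg Subtype.val h4) h3
  · exact subgroupOf_eq_top.1 h

/-- a simple subgroup which is not normal is core-free -/
theorem core_of_simple {G H : Subgroup Γ} [IsSimpleGroup H] (hle : H ≤ G) {g x e : Γ} (hg : g ∈ G)
    (hx : x ∈ H) (he : ∀ y ∈ H, Commute y e) (h : ¬ Commute (g * x * g⁻¹) e) :
    ∀ N : Subgroup Γ, N ≤ H → (∀ g ∈ G, ∀ n ∈ N, g * n * g⁻¹ ∈ N) → N = ⊥ := by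
  intro N h1 h2
  by_contra h3
  obtain ⟨⟨u, hu⟩, hu1⟩ := ne_bot_iff_exists_ne_one.1 h3
  have := le_of_simple (fun g hg => h2 g (hle hg)) (h1 hu) hu
    (fun e => hu1 (Subtype.ext e))
  exact h (he _ (h1 (h2 g hg x (this hx))))

/-- claims that the letters in `[t, n)` commute with the product `e` -/
def cmLet (e : List ℕ) (t n : ℕ) : List Claim :=
  (List.range' t (n - t)).map fun j => (gw j :: e, e ++ [gw j])

theorem comm_KG {e : List ℕ} {t n : ℕ} (hn : n ≤ 128) (h0 : ∀ j, n ≤ j → γ j = 1)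
    (h : ∀ c ∈ cmLet e t n, HoldsG γ c) : ∀ y ∈ KG γ t, Commute y (ppG γ e) := by
  have : KG γ t ≤ centralizer {ppG γ e} := KG_le_of_lt h0 fun j h1 h2 => by
    have := h _ (List.mem_map.2 ⟨j, by rw [List.mem_range'_1]; omega, rfl⟩)
    unfold HoldsG at this
    rw [ppG_cons, ppG_append, ppG_cons, ppG_nil, mul_one, spG_gw γ (by omega)] at this
    exact mem_centralizer_singleton_iff.2 this
  exact fun y hy => mem_centralizer_singleton_iff.1 (this hy)

/-- a group of permutations preserving `{0, …, n - 1}` whose order is that of the alternating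
group -/
theorem iso_alt {Q : Subgroup (Equiv.Perm ℕ)} [IsSimpleGroup Q] {n : ℕ} [NeZero n]
    (hn : 2 ≤ n) (hB : ∀ σ ∈ Q, ∀ i, σ i < n ↔ i < n) (hm : ∃ σ ∈ Q, ∃ i < n, σ i ≠ i)
    (hc : 2 * Nat.card Q = n.factorial) : Nonempty (Q ≃* alternatingGroup (Fin n)) := by
  let f : Q →* Equiv.Perm (Fin n) := MonoidHom.mk' (fun σ => (Fin.equivSubtype.symm.permCongr
    (Equiv.Perm.subtypePerm σ.1 (hB σ.1 σ.2)))) fun _ _ => Equiv.ext fun _ => rfl
  have hi : Function.Injective f := inj_of_simple (by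
    obtain ⟨σ, h1, i, h2, h3⟩ := hm
    exact ⟨⟨σ, h1⟩, fun e => h3 (congrArg (fun x : Equiv.Perm (Fin n) => (x ⟨i, h2⟩).1) e)⟩)
  have : Nontrivial (Fin n) := Fin.nontrivial_iff_two_le.2 hn
  have h2 : f.range.index = 2 := by
    have := f.range.index_mul_card
    rw [← Nat.card_congr (MonoidHom.ofInjective hi).toEquiv, Nat.card_perm, Nat.card_fin, ← hc]
      at this
    refine Nat.eq_of_mul_eq_mul_right (Nat.pos_of_ne_zero fun e => ?_) this
    rw [e] at hc
    exact n.factorial_ne_zero hc.symm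
  exact ⟨(MonoidHom.ofInjective hi).trans
    (MulEquiv.subgroupCongr (Equiv.Perm.eq_alternatingGroup_of_index_eq_two h2))⟩

end Cfsg.Agent.Spor
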